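import Cfsg.Agent.H756.HM.Stmts
import Cfsg.Agent.H802.FusAlp
import Cfsg.Agent.H802.FusCentric
import Cfsg.Agent.H802.FusNorm
import Cfsg.Agent.H802.FusKNorm
import Cfsg.Agent.H753.NormModel

/-!
# S5175 (T1): fusion tools

* `nn_iff`, `nn_of_mp`, `NN_mp` : the condition `N_F(C) ≤ N` in terms of functions;
* `nn_of_par` : invariant subgroups are parabolic;
* `le_of_autGroup_le_card` : Alperin's theorem for maps with large source;
* `nn_transfer` : `N_F(D) ≤ N` is invariant under `N`-maps of `N_S(D)`.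
-/

set_option autoImplicit false

namespace Cfsg.Agent.H89.HM

open Cfsg Cfsg.FusionSystem Cfsg.Agent.H752 Cfsg.Agent.H802 Cfsg.Agent.H753 Cfsg.Agent.H756.HM

variable {Ω : Type*} [Group Ω] {S : Subgroup Ω}

theorem mem_normalizer_of {C : Subgroup Ω} {g : Ω} (h1 : ∀ z ∈ C, g * z * g⁻¹ ∈ C)
    (h2 : ∀ z ∈ C, g⁻¹ * z * g ∈ C) : g ∈ Subgroup.normalizer (C : Set Ω) := by
  rw [Subgroup.mem_normalizer_iff]
  intro z
  refine ⟨h1 z, fun hz => ?_⟩
  have h3 := h2 _ hz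
  have h4 : g⁻¹ * (g * z * g⁻¹) * g = z := by group
  rwa [h4] at h3

/-- A map leaving `C` invariant carries the normalizer of `C` to the normalizer of `C`. -/
theorem mp_mem_normalizer [Finite S] {F : FusionSystem S} {C P : Subgroup Ω} {f : Ω → Ω}
    (hCP : C ≤ P) (hP : P ≤ Subgroup.normalizer (C : Set Ω)) (hf : Mp F P f) {C' : Subgroup Ω}
    (hC' : ∀ y, y ∈ C' ↔ ∃ x ∈ C, f x = y) {x : Ω} (hx : x ∈ P) :
    f x ∈ Subgroup.normalizer (C' : Set Ω) := by
  refine mem_normalizer_of ?_ ?_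
  · intro z hz
    obtain ⟨w, hw, rfl⟩ := (hC' z).1 hz
    refine (hC' _).2 ⟨x * w * x⁻¹, (Subgroup.mem_normalizer_iff.1 (hP hx) w).1 hw, ?_⟩
    rw [hf.mul (P.mul_mem hx (hCP hw)) (P.inv_mem hx), hf.mul hx (hCP hw), hf.inv hx]
  · intro z hz
    obtain ⟨w, hw, rfl⟩ := (hC' z).1 hz
    have h1 : x⁻¹ * w * x ∈ C := by
      have := (Subgroup.mem_normalizer_iff.1 (hP (P.inv_mem hx)) w).1 hw
      simpa using this
    refine (hC' _).2 ⟨x⁻¹ * w * x, h1, ?_⟩
    rw [hf.mul (P.mul_mem (P.inv_mem hx) (hCP hw)) hx, hf.mul (P.inv_mem hx) (hCP hw), hf.inv hx]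

theorem mp_image_self [Finite S] {F : FusionSystem S} {C P : Subgroup Ω} {f : Ω → Ω}
    (hCP : C ≤ P) (hf : Mp F P f) (hfC : ∀ x ∈ C, f x ∈ C) : ∀ y, y ∈ C ↔ ∃ x ∈ C, f x = y := by
  have hCS : C ≤ S := hCP.trans hf.le
  have : Finite C := finite_of_le hCS
  intro y
  constructor
  · intro hy
    exact (hf.res hCP).surj hfC hy
  · rintro ⟨x, hx, rfl⟩
    exact hfC x hx

theorem mp_norm_of [Finite S] {F : FusionSystem S} {C : Subgroup Ω}
    {E : FusionSystem (normalizerIn S C)} (hE : F.IsNormalizerSystem C E) {P : Subgroup Ω}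
    {f : Ω → Ω} (hCP : C ≤ P) (hP : P ≤ Subgroup.normalizer (C : Set Ω)) (hf : Mp F P f)
    (hfC : ∀ x ∈ C, f x ∈ C) : Mp E P f := by
  have hsurj := mp_image_self hCP hf hfC
  refine (mp_normalizerSystem_iff hE).2 ⟨hf, le_inf hf.le hP, fun x hx =>
    ⟨hf.mem hx, mp_mem_normalizer hCP hP hf hsurj hx⟩, f, ?_, fun _ _ => rfl, hfC,
    fun y hy => (hsurj y).1 hy⟩
  rw [sup_eq_left.2 hCP]
  exact hf

theorem nn_iff {F N : FusionSystem S} {C : Subgroup Ω} {E : FusionSystem (normalizerIn S C)}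
    (hE : F.IsNormalizerSystem C E) :
    NN F N C ↔ ∀ (P : Subgroup Ω) (f : Ω → Ω), Mp E P f → Mp N P f := by
  constructor
  · rintro h P f ⟨φ, hφ, h1⟩
    exact ⟨φ, h P (by rw [← hE P]; exact hφ), h1⟩
  · intro h P φ hφ
    rw [← hE P] at hφ
    exact (h P _ (mp_ex hφ)).mem_hom fun x hx => (ex_apply _ hx).symm

theorem NN_mp [Finite S] {F N : FusionSystem S} {C : Subgroup Ω} (h : NN F N C)
    {P : Subgroup Ω} {f : Ω → Ω} (hCP : C ≤ P) (hP : P ≤ Subgroup.normalizer (C : Set Ω))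
    (hf : Mp F P f) (hfC : ∀ x ∈ C, f x ∈ C) : Mp N P f := by
  obtain ⟨E, hE⟩ := exists_normalizerSystem F (hCP.trans hf.le)
  exact (nn_iff hE).1 h P f (mp_norm_of hE hCP hP hf hfC)

theorem nn_of_mp {F N : FusionSystem S} {C : Subgroup Ω} (hCS : C ≤ S)
    (h : ∀ (P : Subgroup Ω) (f : Ω → Ω), C ≤ P → P ≤ Subgroup.normalizer (C : Set Ω) → Mp F P f →
      (∀ x ∈ C, f x ∈ C) → Mp N P f) : NN F N C := by
  obtain ⟨E, hE⟩ := exists_normalizerSystem F hCS
  refine (nn_iff hE).2 fun P f hf => ?_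
  obtain ⟨h1, h2, h3, g, h4, h5, h6, h7⟩ := (mp_normalizerSystem_iff hE).1 hf
  have h8 := h (P ⊔ C) g le_sup_right (sup_le (h2.trans inf_le_right) Subgroup.le_normalizer) h4 h6
  exact (h8.res le_sup_left).congr (fun x hx => (h5 x hx).symm)

/-- Invariant subgroups are parabolic. -/
theorem nn_of_par [Finite S] {F N : FusionSystem S} (hpar : HPar F N) {R : Subgroup Ω}
    (hR : R ≠ ⊥) (hRS : R ≤ S) (hn : S ≤ Subgroup.normalizer (R : Set Ω))
    (h : ∀ f : Ω → Ω, Mp F S f → ∀ x ∈ R, f x ∈ R) : NN F N R := by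
  obtain ⟨E, hE⟩ := exists_normalizerSystem F hRS
  obtain ⟨E', hE'⟩ := exists_normalizerSystem F (le_refl S)
  refine hpar R hR hRS hn fun P φ hφ => ?_
  rw [← hE' P] at hφ
  rw [← hE P]
  suffices hs : Mp E P (ex φ) from hs.mem_hom fun x hx => (ex_apply _ hx).symm
  obtain ⟨h1, h2, h3, g, h4, h5, h6, h7⟩ := (mp_normalizerSystem_iff hE').1 (mp_ex hφ)
  have hPS : P ≤ S := h1.le
  have h8 : Mp F S g := h4.res le_sup_right
  refine (mp_normalizerSystem_iff hE).2 ⟨h1, le_inf hPS (hPS.trans hn), fun x hx =>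
    ⟨h1.mem hx, hn (h1.mem hx)⟩, g, h4.res (sup_le_sup_left hRS P), h5, h g h8, ?_⟩
  have := mp_image_self hRS h8 (h g h8)
  exact fun y hy => (this y).1 hy

/-- Membership of a `Mp`-map on a fully normalized subgroup in terms of `NN`. -/
theorem autGroup_le_of_nn [Finite S] {F N : FusionSystem S} {Q : Subgroup Ω} (hQS : Q ≤ S)
    (h : NN F N Q) : F.autGroup Q ≤ N.autGroup Q := by
  intro α hα
  rw [mp_iff_autGroup hQS] at hα ⊢
  refine NN_mp h le_rfl Subgroup.le_normalizer hα fun x hx => ?_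
  rw [ex_apply _ hx]
  exact (α _).2

theorem autGroup_bot_le (F N : FusionSystem S) {Q : Subgroup Ω} (hQ : Q = ⊥) :
    F.autGroup Q ≤ N.autGroup Q := by
  subst hQ
  intro α _
  have : α = 1 := by
    ext x
    have h1 : x = 1 := Subsingleton.elim _ _
    rw [h1, map_one, map_one]
  rw [this]
  exact one_mem _

/-- **Alperin's theorem for maps with large source.** -/
theorem le_of_autGroup_le_card {p : ℕ} [Fact p.Prime] [Finite S] (hS : IsPGroup p S)
    {F : FusionSystem S} (hF : F.IsSaturated p) (F' : FusionSystem S) (m : ℕ)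
    (h : ∀ Q : Subgroup Ω, F.IsFullyNormalized Q → m ≤ Nat.card Q →
      (∀ R : Subgroup Ω, Nat.card Q < Nat.card R → F.Hom R ⊆ F'.Hom R) →
      F.autGroup Q ≤ F'.autGroup Q) (P : Subgroup Ω) (hmP : m ≤ Nat.card P) :
    F.Hom P ⊆ F'.Hom P := by
  -- downward induction on the order of `P`
  have main : ∀ n : ℕ, ∀ P : Subgroup Ω, m ≤ Nat.card P → Nat.card S - Nat.card P = n →
      F.Hom P ⊆ F'.Hom P := by
    intro n
    induction n using Nat.strong_induction_on with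
    | _ n ih =>
    intro P hmP hn φ hφ
    have hPS : P ≤ S := hom_le hφ
    have hPcard : Nat.card P ≤ Nat.card S := Nat.card_mono (Set.toFinite (S : Set Ω)) hPS
    have IH : ∀ R : Subgroup Ω, Nat.card P < Nat.card R → F.Hom R ⊆ F'.Hom R := by
      intro R hR ψ hψ
      have hRcard : Nat.card R ≤ Nat.card S :=
        Nat.card_mono (Set.toFinite (S : Set Ω)) (hom_le hψ)
      exact ih _ (by omega) R (by omega) rfl hψ
    obtain ⟨Q, hPQ, hQ⟩ := exists_isFullyNormalized hS hF hPS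
    have hcardQ : Nat.card P = Nat.card Q := isConj_card_eq hPQ
    have hAut := h Q hQ (by omega) (fun R hR => IH R (by omega))
    have hQS : Q ≤ S := hQ.1
    by_cases hPeq : P = S
    · -- top case
      subst hPeq
      have hfinP : Finite P := ‹_›
      have hQP : Q = P := Subgroup.eq_of_le_of_card_ge hQS hcardQ.le
      subst hQP
      have hr : φ.range = Q := range_eq_of_mapsTo hφ (fun x => hom_apply_mem hφ x)
      obtain ⟨α, hα, hαe⟩ := exists_aut hφ hr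
      exact aut_restrict_mem hQS (hAut hα) le_rfl (fun x hx => (hαe ⟨x, hx⟩).symm)
    · -- general case
      obtain ⟨α, hα, hαr⟩ := hPQ
      set P₁ := φ.range with hP₁
      have hP₁S : P₁ ≤ S := range_le_of_mem hφ
      have hcard1 : Nat.card P = Nat.card P₁ := isConj_card_eq (isConj_range hφ)
      have hP₁ne : P₁ ≠ S := by
        intro heq
        apply hPeq
        apply Subgroup.eq_of_le_of_card_ge hPS
        rw [hcard1, heq]
      obtain ⟨γ, hγ, hγr⟩ := isConj_trans (isConj_symm (isConj_range hφ)) ⟨α, hα, hαr⟩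
      -- modify α and γ
      obtain ⟨β₁, hβ₁, ψ₁, hψ₁, he₁, -⟩ := exists_extension_normalizer hS hF hα hαr hQ
      obtain ⟨β₂, hβ₂, ψ₂, hψ₂, he₂, -⟩ := exists_extension_normalizer hS hF hγ hγr hQ
      have hψ₁' : ψ₁ ∈ F'.Hom (normalizerIn S P) :=
        IH _ (card_lt_card_normalizerIn hS hPS hPeq) hψ₁
      have hψ₂' : ψ₂ ∈ F'.Hom (normalizerIn S P₁) :=
        IH _ (hcard1 ▸ card_lt_card_normalizerIn hS hP₁S hP₁ne) hψ₂
      have hαm : ∀ x : P, α x ∈ Q := fun x => by rw [← hαr]; exact ⟨x, rfl⟩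
      have hγm : ∀ x : P₁, γ x ∈ Q := fun x => by rw [← hγr]; exact ⟨x, rfl⟩
      -- restrictions of ψ₁, ψ₂
      set a : P →* Ω := ψ₁.comp (Subgroup.inclusion (le_normalizerIn hPS)) with ha
      set c : P₁ →* Ω := ψ₂.comp (Subgroup.inclusion (le_normalizerIn hP₁S)) with hc
      have haF : a ∈ F.Hom P := restrict_mem hψ₁ _
      have haF' : a ∈ F'.Hom P := restrict_mem hψ₁' _
      have hcF : c ∈ F.Hom P₁ := restrict_mem hψ₂ _
      have hcF' : c ∈ F'.Hom P₁ := restrict_mem hψ₂' _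
      have hax : ∀ x : P, a x = (β₁ ⟨α x, hαm x⟩ : Q) := fun x => he₁ x (hαm x) _
      have hcx : ∀ x : P₁, c x = (β₂ ⟨γ x, hγm x⟩ : Q) := fun x => he₂ x (hγm x) _
      have hfinP : Finite P := finite_of_le hPS
      have hfinQ : Finite Q := finite_of_le hQS
      have har : a.range = Q := by
        have hle : a.range ≤ Q := by
          rintro _ ⟨x, rfl⟩
          rw [hax]
          exact (β₁ _).2
        refine Subgroup.eq_of_le_of_card_ge hle ?_
        rw [← isConj_card_eq (isConj_range haF), hcardQ]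
      have hcr : c.range = Q := by
        have hle : c.range ≤ Q := by
          rintro _ ⟨x, rfl⟩
          rw [hcx]
          exact (β₂ _).2
        refine Subgroup.eq_of_le_of_card_ge hle ?_
        rw [← isConj_card_eq (isConj_range hcF), ← hcard1, hcardQ]
      -- θ = c φ a⁻¹
      obtain ⟨ai, hai, hair, hai1, hai2⟩ := exists_inv haF har
      obtain ⟨ci, hci, hcir, hci1, hci2⟩ := exists_inv hcF' hcr
      have haim : ∀ y : Q, ai y ∈ P := fun y => by rw [← hair]; exact ⟨y, rfl⟩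
      obtain ⟨t₁, ht₁, ht₁e⟩ := exists_comp hai hφ haim
      have ht₁m : ∀ y : Q, t₁ y ∈ P₁ := fun y => by
        rw [ht₁e]
        exact ⟨_, rfl⟩
      obtain ⟨t₂, ht₂, ht₂e⟩ := exists_comp ht₁ hcF ht₁m
      have hcm : ∀ x : P₁, c x ∈ Q := fun x => hcr ▸ (⟨x, rfl⟩ : c x ∈ c.range)
      have ht₂m : ∀ y : Q, t₂ y ∈ Q := fun y => by
        rw [ht₂e]
        exact hcm _
      obtain ⟨θ, hθ, hθe⟩ := exists_aut ht₂ (range_eq_of_mapsTo ht₂ ht₂m)
      have hθ' := (mem_autGroup_iff F' hQS θ).1 (hAut hθ)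
      -- φ = c⁻¹ θ a in F'
      have ham : ∀ x : P, a x ∈ Q := fun x => by rw [← har]; exact ⟨x, rfl⟩
      obtain ⟨u₁, hu₁, hu₁e⟩ := exists_comp haF' hθ' ham
      have hu₁m : ∀ x : P, u₁ x ∈ Q := fun x => by
        rw [hu₁e]
        exact (θ _).2
      obtain ⟨u₂, hu₂, hu₂e⟩ := exists_comp hu₁ hci hu₁m
      refine mem_of_apply_eq hu₂ fun x => ?_
      rw [hu₂e]
      have e1 : u₁ x = c ⟨φ x, ⟨x, rfl⟩⟩ := by
        rw [hu₁e]
        have e2 : ((θ ⟨a x, ham x⟩ : Q) : Ω) = t₂ ⟨a x, ham x⟩ := hθe _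
        have e3 : t₁ ⟨a x, ham x⟩ = φ x := by
          rw [ht₁e]
          congr 1
          exact Subtype.ext (hai1 x (ham x))
        have e4 : t₂ ⟨a x, ham x⟩ = c ⟨φ x, ⟨x, rfl⟩⟩ := by
          rw [ht₂e]
          congr 1
          exact Subtype.ext e3
        exact e2.trans e4
      have e5 : (⟨u₁ x, hu₁m x⟩ : Q) = ⟨c ⟨φ x, ⟨x, rfl⟩⟩, e1 ▸ hu₁m x⟩ := Subtype.ext e1
      rw [e5]
      exact (hci1 ⟨φ x, ⟨x, rfl⟩⟩ _).symm
  exact main _ P hmP rfl

/-- `N_F(D) ≤ N` follows from `N_F(D') ≤ N` if `D'` is the image of `D` under a map of `N` on `N_S(D)`. -/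
theorem nn_transfer [Finite S] {F N : FusionSystem S} (hNF : N ≤ F) {D D' : Subgroup Ω}
    (hDS : D ≤ S) {ψ : Ω → Ω} (hψ : Mp N (normalizerIn S D) ψ)
    (hD' : ∀ y, y ∈ D' ↔ ∃ x ∈ D, ψ x = y) (h : NN F N D') : NN F N D := by
  have hmono : ∀ {P : Subgroup Ω} {f : Ω → Ω}, Mp N P f → Mp F P f := by
    rintro P f ⟨φ, hφ, h1⟩
    exact ⟨φ, hNF P hφ, h1⟩
  have hDR : D ≤ normalizerIn S D := le_normalizerIn hDS
  refine nn_of_mp hDS fun P f hDP hP hf hfD => ?_
  have hPR : P ≤ normalizerIn S D := le_inf hf.le hP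
  obtain ⟨R', hR', -, -⟩ := hψ.exists_image (le_refl (normalizerIn S D))
  obtain ⟨g, hg, hg1, hg2⟩ := hψ.exists_symm (le_refl (normalizerIn S D)) hR'
  obtain ⟨P', hP', -, -⟩ := hψ.exists_image hPR
  have hP'R' : P' ≤ R' := fun y hy => by
    obtain ⟨x, hx, hxy⟩ := (hP' y).1 hy
    exact (hR' y).2 ⟨x, hPR hx, hxy⟩
  have hgP : ∀ y ∈ P', g y ∈ P := fun y hy => by
    obtain ⟨x, hx, rfl⟩ := (hP' y).1 hy
    rw [hg1 x (hPR hx)]
    exact hx
  have hfR : ∀ x ∈ P, f x ∈ normalizerIn S D := fun x hx =>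
    ⟨hf.mem hx, mp_mem_normalizer hDP hP hf (mp_image_self hDP hf hfD) hx⟩
  -- the transported map
  have hk : Mp F P' (fun y => ψ (f (g y))) :=
    (((hmono hg).res hP'R').comp hf hgP).comp (hmono hψ) (fun y hy => hfR _ (hgP y hy))
  have hD'P' : D' ≤ P' := fun y hy => by
    obtain ⟨x, hx, hxy⟩ := (hD' y).1 hy
    exact (hP' y).2 ⟨x, hDP hx, hxy⟩
  have hkD : ∀ y ∈ D', ψ (f (g y)) ∈ D' := fun y hy => by
    obtain ⟨x, hx, rfl⟩ := (hD' y).1 hy
    rw [hg1 x (hDR hx)]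
    exact (hD' _).2 ⟨f x, hfD x hx, rfl⟩
  have hP'n : P' ≤ Subgroup.normalizer (D' : Set Ω) := fun y hy => by
    obtain ⟨x, hx, rfl⟩ := (hP' y).1 hy
    exact mp_mem_normalizer hDR inf_le_right hψ hD' (hPR hx)
  have hk' : Mp N P' (fun y => ψ (f (g y))) := NN_mp h hD'P' hP'n hk hkD
  have h1 : Mp N P (fun x => g ((fun y => ψ (f (g y))) (ψ x))) := by
    have h2 : Mp N P (fun x => (fun y => ψ (f (g y))) (ψ x)) :=
      (hψ.res hPR).comp hk' (fun x hx => (hP' _).2 ⟨x, hx, rfl⟩)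
    refine h2.comp hg (fun x hx => (hR' _).2 ⟨f (g (ψ x)), ?_, rfl⟩)
    rw [hg1 x (hPR hx)]
    exact hfR x hx
  refine h1.congr fun x hx => ?_
  show f x = g (ψ (f (g (ψ x))))
  rw [hg1 x (hPR hx), hg1 _ (hfR x hx)]

end Cfsg.Agent.H89.HM
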