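import Cfsg.Agent.H89.HM.Basic

/-!
# S5175 (T1): systems realized by a group

For a system `D` over `T` realized by `ι : T → G` and `g : G`, `dom ι g` is the subgroup of the `x ∈ T` with
`g ι(x) g⁻¹ ∈ ι(T)`, and `kk` the corresponding map of the system.
-/

set_option autoImplicit false

namespace Cfsg.Agent.H89.HM

open Cfsg Cfsg.FusionSystem Cfsg.Agent.H752 Cfsg.Agent.H802 Cfsg.Agent.H753 Cfsg.Agent.H756.HM

variable {Ω : Type*} [Group Ω]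

section realized

variable {T : Subgroup Ω} {D : FusionSystem T} {G : Type*} [Group G] {ι : T →* G}

/-- The image of `A ∩ T` under `ι`. -/
def up (ι : T →* G) (A : Subgroup Ω) : Subgroup G := (A.subgroupOf T).map ι

theorem mem_up_iff {A : Subgroup Ω} {y : G} :
    y ∈ up ι A ↔ ∃ (x : Ω) (_ : x ∈ A) (hT : x ∈ T), ι ⟨x, hT⟩ = y := by
  constructor
  · rintro ⟨x, hx, rfl⟩
    exact ⟨x, hx, x.2, rfl⟩
  · rintro ⟨x, hx, hT, rfl⟩
    exact ⟨⟨x, hT⟩, hx, rfl⟩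

theorem mem_up (hι : Function.Injective ι) {A : Subgroup Ω} {x : Ω} (hx : x ∈ T) :
    ι ⟨x, hx⟩ ∈ up ι A ↔ x ∈ A := by
  rw [mem_up_iff]
  constructor
  · rintro ⟨y, hy, hyT, h⟩
    have h1 : y = x := congrArg Subtype.val (hι h)
    rwa [← h1]
  · intro h
    exact ⟨x, h, hx, rfl⟩

/-- Elements of `T` carried into `ι(T)` by `g`. -/
def dom (ι : T →* G) (g : G) : Subgroup Ω :=
  ((ι.range.comap (MulAut.conj g).toMonoidHom).comap ι).map T.subtype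

theorem mem_dom {g : G} {x : Ω} : x ∈ dom ι g ↔ ∃ (hx : x ∈ T) (y : T), ι y = g * ι ⟨x, hx⟩ * g⁻¹ := by
  constructor
  · rintro ⟨x, ⟨y, hy⟩, rfl⟩
    exact ⟨x.2, y, hy⟩
  · rintro ⟨hx, y, hy⟩
    exact ⟨⟨x, hx⟩, ⟨y, hy⟩, rfl⟩

theorem dom_le (g : G) : dom ι g ≤ T := fun _ hx => (mem_dom.1 hx).1

theorem exists_kk (hD : D.IsRealizedBy ι) (g : G) : ∃ f : Ω → Ω, Mp D (dom ι g) f ∧
    ∀ (x : Ω) (hx : x ∈ dom ι g), ∃ hfx : f x ∈ T, ι ⟨f x, hfx⟩ = g * ι ⟨x, dom_le g hx⟩ * g⁻¹ :=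
  exists_mp_of_conj hD (dom_le g) g fun x => by
    obtain ⟨h1, y, hy⟩ := mem_dom.1 x.2
    exact ⟨y, hy⟩

/-- The map of the system given by `g`. -/
noncomputable def kk (hD : D.IsRealizedBy ι) (g : G) : Ω → Ω := Classical.choose (exists_kk hD g)

variable (hD : D.IsRealizedBy ι)

theorem kk_mp (g : G) : Mp D (dom ι g) (kk hD g) := (Classical.choose_spec (exists_kk hD g)).1

theorem kk_mem (g : G) {x : Ω} (hx : x ∈ dom ι g) : kk hD g x ∈ T :=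
  ((Classical.choose_spec (exists_kk hD g)).2 x hx).1

theorem kk_spec (g : G) {x : Ω} (hx : x ∈ dom ι g) (hT : x ∈ T) (h' : kk hD g x ∈ T) :
    ι ⟨kk hD g x, h'⟩ = g * ι ⟨x, hT⟩ * g⁻¹ :=
  ((Classical.choose_spec (exists_kk hD g)).2 x hx).2

theorem kk_eq (g : G) {x : Ω} (hT : x ∈ T) {y : Ω} (hy : y ∈ T)
    (h : ι ⟨y, hy⟩ = g * ι ⟨x, hT⟩ * g⁻¹) : kk hD g x = y := by
  have hx : x ∈ dom ι g := mem_dom.2 ⟨hT, ⟨y, hy⟩, h⟩
  have h1 := kk_spec hD g hx hT (kk_mem hD g hx)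
  rw [← h] at h1
  exact congrArg Subtype.val (hD.1 h1)

/-- All maps of the system are of this form. -/
theorem exists_eq_kk {P : Subgroup Ω} {f : Ω → Ω} (h : Mp D P f) :
    ∃ g : G, P ≤ dom ι g ∧ ∀ x ∈ P, f x = kk hD g x := by
  obtain ⟨g, hg⟩ := exists_conj_of_mp hD h
  refine ⟨g, fun x hx => ?_, fun x hx => ?_⟩
  · obtain ⟨h1, h2⟩ := hg x hx (h.le hx)
    exact mem_dom.2 ⟨h.le hx, _, h2⟩
  · obtain ⟨h1, h2⟩ := hg x hx (h.le hx)
    exact (kk_eq hD g (h.le hx) h1 h2).symm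

/-- `g` normalizes `ι(A)`. -/
def Nrm (ι : T →* G) (A : Subgroup Ω) (g : G) : Prop :=
  ∀ (x : Ω) (_ : x ∈ A) (hT : x ∈ T), ∃ (y : Ω) (_ : y ∈ A) (hyT : y ∈ T),
    ι ⟨y, hyT⟩ = g * ι ⟨x, hT⟩ * g⁻¹

theorem nrm_of_normal {A : Subgroup Ω} (h : (up ι A).Normal) (g : G) : Nrm ι A g := by
  intro x hx hT
  have h1 := h.conj_mem _ (mem_up_iff.2 ⟨x, hx, hT, rfl⟩) g
  obtain ⟨y, hy, hyT, h2⟩ := mem_up_iff.1 h1
  exact ⟨y, hy, hyT, h2⟩

theorem normal_of_nrm {A : Subgroup Ω} (h : ∀ g, Nrm ι A g) : (up ι A).Normal := by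
  refine ⟨fun y hy g => ?_⟩
  obtain ⟨x, hx, hT, rfl⟩ := mem_up_iff.1 hy
  obtain ⟨z, hz, hzT, h2⟩ := h g x hx hT
  exact mem_up_iff.2 ⟨z, hz, hzT, h2⟩

theorem Nrm.le_dom {A : Subgroup Ω} {g : G} (hA : A ≤ T) (h : Nrm ι A g) : A ≤ dom ι g :=
  fun x hx => by
    obtain ⟨y, -, hyT, h2⟩ := h x hx (hA hx)
    exact mem_dom.2 ⟨hA hx, _, h2⟩

theorem Nrm.kk_mem {A : Subgroup Ω} {g : G} (hA : A ≤ T) (h : Nrm ι A g) {x : Ω} (hx : x ∈ A) :
    kk hD g x ∈ A := by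
  obtain ⟨y, hy, hyT, h2⟩ := h x hx (hA hx)
  rw [kk_eq hD g (hA hx) hyT h2]
  exact hy

/-- A subgroup which is normal in the system and normalized by `T` has normal image in the model. -/
theorem nrm_of_isNormal {p : ℕ} (hm : D.IsModel p G ι) {R : Subgroup Ω} (hR : D.IsNormal R)
    (hT : T ≤ Subgroup.normalizer (R : Set Ω)) (g : G) : Nrm ι R g := by
  obtain ⟨hfin, hreal, ⟨Sy, hSy⟩, hcen⟩ := hm
  have hRT : R ≤ T := hR.1
  have hpc : ∀ y ∈ pCore p G, ∃ n : T, ι n = y := by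
    intro y hy
    have h1 := Cfsg.Agent.Lib.Cores.pCore_le_sylow Sy hy
    rw [hSy] at h1
    exact h1
  have hpn : (pCore p G).Normal := Cfsg.Agent.Lib.Cores.pCore_normal p
  have hconjR : ∀ (n : T) (r : Ω), r ∈ R → (n : Ω) * r * (n : Ω)⁻¹ ∈ R :=
    fun n r hr => (Subgroup.mem_normalizer_iff.1 (hT n.2) r).1 hr
  set P₀ : Subgroup Ω := ((pCore p G).comap ι).map T.subtype with hP₀
  have hP₀N : P₀ ≤ T := by
    rintro _ ⟨x, -, rfl⟩
    exact x.2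
  intro r hr _
  obtain ⟨f, hf, hfe⟩ := exists_mp_of_conj hreal hP₀N g (fun x => by
    obtain ⟨y, hy, hyx⟩ := x.2
    refine hpc _ ?_
    have h1 : ι ⟨x, hP₀N x.2⟩ ∈ pCore p G := by
      have h2 : (⟨(x : Ω), hP₀N x.2⟩ : T) = y := Subtype.ext hyx.symm
      rw [h2]
      exact hy
    exact hpn.conj_mem _ h1 g)
  obtain ⟨φ, hφ, hφe⟩ := hf
  obtain ⟨ψ, hψ, hψ1, hψ2⟩ := hR.2 P₀ φ hφ
  obtain ⟨g', hg'⟩ := exists_conj_of_mp hreal (mp_ex hψ)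
  have hc : g⁻¹ * g' ∈ pCore p G := by
    refine hcen (Subgroup.mem_centralizer_iff.2 fun y hy => ?_)
    obtain ⟨n, hn⟩ := hpc y hy
    have hnP : (n : Ω) ∈ P₀ := ⟨n, by show ι n ∈ pCore p G; rw [hn]; exact hy, rfl⟩
    obtain ⟨h1, h2⟩ := hfe n hnP
    obtain ⟨h3, h4⟩ := hg' n ((le_sup_left : P₀ ≤ P₀ ⊔ R) hnP) n.2
    have h5 : ex ψ n = f n := by
      rw [ex_apply _ ((le_sup_left : P₀ ≤ P₀ ⊔ R) hnP), ← hφe n hnP]
      exact hψ1 ⟨n, hnP⟩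
    have h6 : (⟨ex ψ n, h3⟩ : T) = ⟨f n, h1⟩ := Subtype.ext h5
    rw [h6, h2] at h4
    have h9 : g * ι n * g⁻¹ = g' * ι n * g'⁻¹ := h4
    rw [hn] at h9
    calc y * (g⁻¹ * g') = g⁻¹ * (g * y * g⁻¹) * g' := by group
      _ = g⁻¹ * (g' * y * g'⁻¹) * g' := by rw [h9]
      _ = g⁻¹ * g' * y := by group
  obtain ⟨n, hn⟩ := hpc _ hc
  have hr1 : (n : Ω)⁻¹ * r * (n : Ω) ∈ R := by
    have := hconjR n⁻¹ r hr
    simpa using this
  obtain ⟨h3, h4⟩ := hg' _ ((le_sup_right : R ≤ P₀ ⊔ R) hr1) (hRT hr1)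
  have h5 : ex ψ ((n : Ω)⁻¹ * r * (n : Ω)) ∈ R := by
    rw [ex_apply _ ((le_sup_right : R ≤ P₀ ⊔ R) hr1)]
    have h8 : ψ ⟨_, (le_sup_right : R ≤ P₀ ⊔ R) hr1⟩ ∈ (R.subgroupOf (P₀ ⊔ R)).map ψ :=
      ⟨⟨_, (le_sup_right : R ≤ P₀ ⊔ R) hr1⟩, hr1, rfl⟩
    rwa [hψ2] at h8
  refine ⟨_, h5, hRT h5, ?_⟩
  have h6 : (⟨(n : Ω)⁻¹ * r * (n : Ω), hRT hr1⟩ : T) = n⁻¹ * ⟨r, hRT hr⟩ * n := rfl
  rw [h6, map_mul, map_mul, map_inv, hn] at h4
  have h7 : (⟨ex ψ ((n : Ω)⁻¹ * r * (n : Ω)), hRT h5⟩ : T) =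
    ⟨ex ψ ((n : Ω)⁻¹ * r * (n : Ω)), h3⟩ := rfl
  rw [h7, h4]
  group

end realized

section normalizer

variable {S : Subgroup Ω} {F N : FusionSystem S} {C : Subgroup Ω}
  {E : FusionSystem (normalizerIn S C)} {G : Type*} [Group G] {ι : ↥(normalizerIn S C) →* G}

theorem mp_of_norm (hE : F.IsNormalizerSystem C E) {P : Subgroup Ω} {f : Ω → Ω} (h : Mp E P f) :
    Mp F P f := ((mp_normalizerSystem_iff hE).1 h).1

/-- If `N_F(C') ≤ N` and `ι(C')` is normal in the group realizing `N_F(C)`, then `N_F(C) ≤ N`. -/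
theorem nn_of_normal [Finite S] (hE : F.IsNormalizerSystem C E) (hD : E.IsRealizedBy ι)
    {C' : Subgroup Ω} (hC' : C' ≤ normalizerIn S C)
    (hn : normalizerIn S C ≤ Subgroup.normalizer (C' : Set Ω)) (hnr : ∀ g, Nrm ι C' g)
    (h : NN F N C') : NN F N C := by
  refine (nn_iff hE).2 fun P f hf => ?_
  obtain ⟨g, hPd, hg⟩ := exists_eq_kk hD hf
  have hC'd : C' ≤ dom ι g := (hnr g).le_dom hC'
  have h1 : Mp E (P ⊔ C') (kk hD g) := (kk_mp hD g).res (sup_le hPd hC'd)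
  have h2 : Mp N (P ⊔ C') (kk hD g) :=
    NN_mp h le_sup_right (sup_le (hf.le.trans hn) Subgroup.le_normalizer) (mp_of_norm hE h1)
      (fun x hx => (hnr g).kk_mem hD hC' hx)
  exact (h2.res le_sup_left).congr hg

/-- A normalizer of a normal subgroup `D` of `T` with `N_F(D) ≤ N` induces maps of `N` on `C`. -/
theorem mp_of_nrm [Finite S] (hCS : C ≤ S) (hE : F.IsNormalizerSystem C E) (hD : E.IsRealizedBy ι)
    {D : Subgroup Ω} (hDT : D ≤ normalizerIn S C)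
    (hn : normalizerIn S C ≤ Subgroup.normalizer (D : Set Ω)) (h : NN F N D) {g : G}
    (hC : Nrm ι C g) (hg : Nrm ι D g) : Mp N C (kk hD g) := by
  have hCT : C ≤ normalizerIn S C := le_normalizerIn hCS
  have h1 : Mp E (C ⊔ D) (kk hD g) := (kk_mp hD g).res (sup_le (hC.le_dom hCT) (hg.le_dom hDT))
  have h2 : Mp N (C ⊔ D) (kk hD g) :=
    NN_mp h le_sup_right (sup_le (hCT.trans hn) Subgroup.le_normalizer) (mp_of_norm hE h1)
      (fun x hx => hg.kk_mem hD hDT hx)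
  exact h2.res le_sup_left

/-- If all elements of `G` induce maps of `N` on the centric subgroup `C`, then `N_F(C) ≤ N`. -/
theorem nn_of_all {p : ℕ} [Fact p.Prime] [Finite S] (hS : IsPGroup p S) (hF : F.IsSaturated p)
    (hN : N.IsSaturated p) (hNF : N ≤ F) (hC : F.IsCentric C) (hE : F.IsNormalizerSystem C E)
    (hD : E.IsRealizedBy ι) (hnr : ∀ g, Nrm ι C g) (h : ∀ g, Mp N C (kk hD g)) : NN F N C := by
  have hCT : C ≤ normalizerIn S C := le_normalizerIn hC.1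
  refine (nn_iff hE).2 fun P f hf => ?_
  obtain ⟨g, hPd, hg⟩ := exists_eq_kk hD hf
  have h1 : Mp E (P ⊔ C) (kk hD g) := (kk_mp hD g).res (sup_le hPd ((hnr g).le_dom hCT))
  obtain ⟨ψ, hψ, hψe⟩ := mp_of_norm hE h1
  have h2 : ψ ∈ N.Hom (P ⊔ C) := by
    refine mem_of_restrict_centric hS hF hN hNF hC le_sup_right hψ ?_
    exact (h g).mem_hom fun x hx => hψe x _
  have h3 : Mp N (P ⊔ C) (kk hD g) := ⟨ψ, h2, hψe⟩
  exact (h3.res le_sup_left).congr hg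

/-- The elements of `G` inducing maps of `N` on `C`. -/
noncomputable def grp (N : FusionSystem S) (hCS : C ≤ S) (hD : E.IsRealizedBy ι) (hnr : ∀ g, Nrm ι C g) : Subgroup G where
  carrier := {g | Mp N C (kk hD g)}
  one_mem' := by
    show Mp N C (kk hD 1)
    refine (mp_id N hCS).congr fun x hx => ?_
    have hCT : C ≤ normalizerIn S C := le_normalizerIn hCS
    exact kk_eq hD 1 (hCT hx) (hCT hx) (by group)
  mul_mem' := by
    intro g h hg hh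
    have hCT : C ≤ normalizerIn S C := le_normalizerIn hCS
    refine (Mp.comp (hh : Mp N C (kk hD h)) (hg : Mp N C (kk hD g))
      (fun x hx => (hnr h).kk_mem hD hCT hx)).congr fun x hx => ?_
    have h1 : kk hD h x ∈ C := (hnr h).kk_mem hD hCT hx
    have h2 : kk hD g (kk hD h x) ∈ C := (hnr g).kk_mem hD hCT h1
    refine kk_eq hD _ (hCT hx) (hCT h2) ?_
    rw [kk_spec hD g ((hnr g).le_dom hCT h1) (hCT h1) (hCT h2),
      kk_spec hD h ((hnr h).le_dom hCT hx) (hCT hx) (hCT h1)]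
    group
  inv_mem' := by
    intro g hg
    have hCT : C ≤ normalizerIn S C := le_normalizerIn hCS
    refine Mp.symm (hg : Mp N C (kk hD g)) fun y hy => ?_
    have h1 : kk hD g⁻¹ y ∈ C := (hnr g⁻¹).kk_mem hD hCT hy
    refine ⟨_, h1, ?_, rfl⟩
    refine kk_eq hD _ (hCT h1) (hCT hy) ?_
    rw [kk_spec hD g⁻¹ ((hnr g⁻¹).le_dom hCT hy) (hCT hy) (hCT h1)]
    group

theorem mem_grp {hCS : C ≤ S} {hD : E.IsRealizedBy ι} {hnr : ∀ g, Nrm ι C g} {g : G} :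
    g ∈ grp N hCS hD hnr ↔ Mp N C (kk hD g) := Iff.rfl

theorem range_le_grp {hCS : C ≤ S} {hD : E.IsRealizedBy ι} {hnr : ∀ g, Nrm ι C g} :
    ι.range ≤ grp N hCS hD hnr := by
  rintro _ ⟨t, rfl⟩
  have hCT : C ≤ normalizerIn S C := le_normalizerIn hCS
  refine (mp_conj N hCS t.2.1).congr fun x hx => ?_
  have h1 : (t : Ω) * x * (t : Ω)⁻¹ ∈ C := (Subgroup.mem_normalizer_iff.1 t.2.2 x).1 hx
  refine kk_eq hD _ (hCT hx) (hCT h1) ?_
  rw [← map_inv, ← map_mul, ← map_mul]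
  rfl

end normalizer

end Cfsg.Agent.H89.HM
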